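import Cfsg.Agent.HN.XInst

/-!
# S5719, cell `hn`: subgroups of index at most 37 of `C(W0)/⟨W0⟩` (helper789)

`Bas k γ` : `R = ⟨k 0, …, k 7⟩ = 2^8`, the `γ g` act by the matrices `gen g`. `Y` a subgroup of index at most 37; `W` = masks
`m` with `r k m ∈ Y`.

* `stepA` : `W` is invariant under a nontrivial element of the group `5 × 5 = ⟨P1, P2⟩`;
* `stepB` : `W` is invariant under each element of order 5;
* `abs` : `Y` contains one of the 60 elements `r k m`, `m ∈ DD`.
-/

set_option autoImplicit false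
set_option maxRecDepth 100000

namespace Cfsg.Agent.H789.IF.HNAbs

open Cfsg.Agent.HN.XMat Cfsg.Agent.HN.XStruct

/-! ### Polynomials in a matrix -/

/-- `∑ c_i P^i m`, `i < 4` -/
def poly (P c m : ℕ) : ℕ :=
  (bif c.testBit 0 then m else 0) ^^^ ((bif c.testBit 1 then app P m else 0) ^^^
    ((bif c.testBit 2 then app P (app P m) else 0) ^^^ (bif c.testBit 3 then app P (app P (app P m)) else 0)))

/-- powers of a matrix -/
def mp (P : ℕ) (i : ℕ) : ℕ := Nat.rec MI (fun _ ih => mul ih P) i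

theorem mp_zero (P : ℕ) : mp P 0 = MI := rfl
theorem mp_succ (P i : ℕ) : mp P (i + 1) = mul (mp P i) P := rfl

theorem bxor_bif (b c : Bool) (x : ℕ) : (bif b then x else 0) ^^^ (bif c then x else 0) = bif (b ^^ c) then x else 0 := by
  cases b <;> cases c <;> simp

theorem poly_xor (P c d m : ℕ) : poly P c m ^^^ poly P d m = poly P (c ^^^ d) m := by
  unfold poly
  rw [Nat.testBit_xor, Nat.testBit_xor, Nat.testBit_xor, Nat.testBit_xor, ← bxor_bif (c.testBit 0), ← bxor_bif (c.testBit 1),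
    ← bxor_bif (c.testBit 2), ← bxor_bif (c.testBit 3)]
  ac_rfl

/-! ### The group -/

section

variable {K : Type*} [Group K] {k γ : ℕ → K}

theorem acts_pow (h : Bas k γ) {x : K} {P : ℕ} (hx : Acts k x P) (i : ℕ) : Acts k (x ^ i) (mp P i) := by
  induction i with
  | zero => rw [pow_zero]; exact Bas.acts_one
  | succ i ih => rw [pow_succ, mp_succ]; exact h.acts_mul ih hx

theorem acts_inv (h : Bas k γ) {x : K} {P Q : ℕ} (hx : Acts k x P) (hQ : ∀ i < 8, app P (row Q i) = 2 ^ i) :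
    Acts k x⁻¹ Q := by
  intro i hi
  have h1 := h.acts_r hx (row Q i)
  rw [hQ i hi, Bas.r_pow hi] at h1
  rw [inv_inv, ← h1]
  group

/-- multiplication by elements of `R` on the right -/
theorem conj_mulr (h : Bas k γ) {x : K} {P : ℕ} (hx : Acts k x P) (m n l : ℕ) :
    (r k l * x * r k m)⁻¹ * r k n * (r k l * x * r k m) = r k (app P n) := by
  have h1 := h.acts_r hx n
  have h2 := h.r_comm l n
  have h3 := h.r_comm m (app P n)
  calc (r k l * x * r k m)⁻¹ * r k n * (r k l * x * r k m)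
      = (r k m)⁻¹ * (x⁻¹ * ((r k l)⁻¹ * (r k n * r k l)) * x) * r k m := by group
    _ = (r k m)⁻¹ * (x⁻¹ * r k n * x) * r k m := by rw [← h2, inv_mul_cancel_left]
    _ = (r k m)⁻¹ * (r k (app P n) * r k m) := by rw [h1, mul_assoc]
    _ = r k (app P n) := by rw [← h3, inv_mul_cancel_left]

/-- `W` is invariant under `P` -/
def Inv (k : ℕ → K) (Y : Subgroup K) (P : ℕ) : Prop := ∀ n, r k n ∈ Y → r k (app P n) ∈ Y

variable {Y : Subgroup K}

theorem inv_of (h : Bas k γ) {x : K} {P : ℕ} (hx : Acts k x P) {l m : ℕ} (hy : r k l * x * r k m ∈ Y) : Inv k Y P := by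
  intro n hn
  rw [← conj_mulr h hx m n l]
  exact Y.mul_mem (Y.mul_mem (Y.inv_mem hy) hn) hy

theorem mem_xor (h : Bas k γ) {m n : ℕ} (hm : r k m ∈ Y) (hn : r k n ∈ Y) : r k (m ^^^ n) ∈ Y := by
  rw [h.r_xor]
  exact Y.mul_mem hm hn

theorem mem_bif (b : Bool) {m : ℕ} (hm : r k m ∈ Y) : r k (bif b then m else 0) ∈ Y := by
  cases b
  · change r k 0 ∈ Y
    rw [Bas.r_zero]
    exact Y.one_mem
  · exact hm

theorem Inv.poly (h : Bas k γ) {P : ℕ} (hP : Inv k Y P) (c : ℕ) {m : ℕ} (hm : r k m ∈ Y) : r k (poly P c m) ∈ Y := by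
  have h1 := hP m hm
  have h2 := hP _ h1
  have h3 := hP _ h2
  exact mem_xor h (mem_bif _ hm) (mem_xor h (mem_bif _ h1) (mem_xor h (mem_bif _ h2) (mem_bif _ h3)))

/-! ### Step A -/

/-- matrix of `[1, 1, 0]` -/
def P1 : ℕ := 16246484361671956993
/-- matrix of `[2, 1, 2, 1, 0, 2]` -/
def P2 : ℕ := 4231149957406676138

theorem mw1 : mw [1, 1, 0] = P1 := by decide +kernel
theorem mw2 : mw [2, 1, 2, 1, 0, 2] = P2 := by decide +kernel

/-- every nonzero polynomial in `P` of degree `< 4` takes `a` to a mask which comes back to `a` -/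
def TT (P a : ℕ) : Prop := ∀ c < 16, c ≠ 0 → ∃ d < 16, poly P d (poly P c a) = a

instance (P a : ℕ) : Decidable (TT P a) := by unfold TT; infer_instance

theorem inv1 : ∀ i < 5, ∀ j < 8, app (mp P1 i) (row (mp P1 (5 - i)) j) = 2 ^ j := by decide +kernel
theorem inv2 : ∀ i < 5, ∀ j < 8, app (mp P2 i) (row (mp P2 (5 - i)) j) = 2 ^ j := by decide +kernel

/-- the matrix of `(u1^i u2^j)⁻¹ u1^i' u2^j'` -/
def NN (i j i' j' : ℕ) : ℕ := mul (mul (mp P2 (5 - j)) (mp P1 (5 - i))) (mul (mp P1 i') (mp P2 j'))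

theorem NN_eq : ∀ i < 5, ∀ j < 5, ∀ i' < 5, ∀ j' < 5,
    NN i j i' j' = mul (mp P1 ((5 - i + i') % 5)) (mp P2 ((5 - j + j') % 5)) := by decide +kernel

theorem TT_all : ∀ i < 5, ∀ j < 5, (i ≠ 0 ∨ j ≠ 0) →
    TT (mul (mp P1 i) (mp P2 j)) (bif Nat.beq j 0 then 97 else 1) := by decide +kernel

theorem mem_DD1 : 1 ∈ DD := by decide +kernel
theorem mem_DD97 : 97 ∈ DD := by decide +kernel

variable (h : Bas k γ) (h0 : Y.index ≠ 0) (h37 : Y.index ≤ 37) (hD : ∀ m ∈ DD, r k m ∉ Y)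

include h0 h37 in
/-- pigeonhole -/
theorem pig {ι : Type*} [Finite ι] (hι : 38 ≤ Nat.card ι) (f : ι → K) : ∃ a b, a ≠ b ∧ (f a)⁻¹ * f b ∈ Y := by
  have hfi : Y.FiniteIndex := ⟨h0⟩
  have h1 : ¬ Function.Injective fun a => (f a : K ⧸ Y) := by
    intro hi
    have h2 := Nat.card_le_card_of_injective _ hi
    change Nat.card ι ≤ Y.index at h2
    omega
  rw [Function.Injective] at h1
  push Not at h1
  obtain ⟨a, b, h2, h3⟩ := h1
  exact ⟨a, b, h3, QuotientGroup.eq.1 h2⟩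

include h h0 h37 hD in
theorem stepA : ∃ P a, a ∈ DD ∧ TT P a ∧ Inv k Y P := by
  set u1 : K := evw γ [1, 1, 0] with hu1
  set u2 : K := evw γ [2, 1, 2, 1, 0, 2] with hu2
  have a1 : Acts k u1 P1 := by rw [← mw1]; exact h.acts_evw _
  have a2 : Acts k u2 P2 := by rw [← mw2]; exact h.acts_evw _
  obtain ⟨⟨⟨i, j⟩, b⟩, ⟨⟨i', j'⟩, b'⟩, hne, hy⟩ := pig h0 h37 (ι := (Fin 5 × Fin 5) × Bool)
    (by rw [Nat.card_eq_fintype_card]; decide)
    (fun p => u1 ^ (p.1.1 : ℕ) * u2 ^ (p.1.2 : ℕ) * r k (bif p.2 then 1 else 0))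
  by_cases hc : (i, j) = (i', j')
  · exfalso
    obtain ⟨rfl, rfl⟩ := Prod.mk.inj hc
    have hbb : b ≠ b' := fun hb => hne (by rw [hb])
    have h1 : (u1 ^ (i : ℕ) * u2 ^ (j : ℕ) * r k (bif b then 1 else 0))⁻¹ *
        (u1 ^ (i : ℕ) * u2 ^ (j : ℕ) * r k (bif b' then 1 else 0)) = r k 1 := by
      have h2 : (u1 ^ (i : ℕ) * u2 ^ (j : ℕ) * r k (bif b then 1 else 0))⁻¹ *
        (u1 ^ (i : ℕ) * u2 ^ (j : ℕ) * r k (bif b' then 1 else 0)) =
          (r k (bif b then 1 else 0))⁻¹ * r k (bif b' then 1 else 0) := by group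
      rw [h2, h.r_inv, ← h.r_xor]
      congr 1
      cases b <;> cases b' <;> first | rfl | exact absurd rfl hbb
    have hy' : (u1 ^ (i : ℕ) * u2 ^ (j : ℕ) * r k (bif b then 1 else 0))⁻¹ *
        (u1 ^ (i : ℕ) * u2 ^ (j : ℕ) * r k (bif b' then 1 else 0)) ∈ Y := hy
    rw [h1] at hy'
    exact hD 1 mem_DD1 hy'
  · have hy' : (u1 ^ (i : ℕ) * u2 ^ (j : ℕ) * r k (bif b then 1 else 0))⁻¹ *
        (u1 ^ (i' : ℕ) * u2 ^ (j' : ℕ) * r k (bif b' then 1 else 0)) ∈ Y := hy
    have h1 : (u1 ^ (i : ℕ) * u2 ^ (j : ℕ) * r k (bif b then 1 else 0))⁻¹ *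
        (u1 ^ (i' : ℕ) * u2 ^ (j' : ℕ) * r k (bif b' then 1 else 0)) =
        r k (bif b then 1 else 0) * (((u2 ^ (j : ℕ))⁻¹ * (u1 ^ (i : ℕ))⁻¹) * (u1 ^ (i' : ℕ) * u2 ^ (j' : ℕ))) *
          r k (bif b' then 1 else 0) := by
      rw [mul_inv_rev, h.r_inv]
      group
    rw [h1] at hy'
    have e1 : Acts k (u1 ^ (i : ℕ))⁻¹ (mp P1 (5 - i)) := acts_inv h (acts_pow h a1 i) (inv1 i i.2)
    have e2 : Acts k (u2 ^ (j : ℕ))⁻¹ (mp P2 (5 - j)) := acts_inv h (acts_pow h a2 j) (inv2 j j.2)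
    have e3 : Acts k (((u2 ^ (j : ℕ))⁻¹ * (u1 ^ (i : ℕ))⁻¹) * (u1 ^ (i' : ℕ) * u2 ^ (j' : ℕ))) (NN i j i' j') :=
      h.acts_mul (h.acts_mul e2 e1) (h.acts_mul (acts_pow h a1 i') (acts_pow h a2 j'))
    have h2 := inv_of h e3 hy'
    rw [NN_eq i i.2 j j.2 i' i'.2 j' j'.2] at h2
    refine ⟨_, (bif Nat.beq ((5 - (j : ℕ) + j') % 5) 0 then 97 else 1), ?_, TT_all _ (Nat.mod_lt _ (by norm_num)) _
      (Nat.mod_lt _ (by norm_num)) ?_, h2⟩
    · cases Nat.beq ((5 - (j : ℕ) + j') % 5) 0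
      · exact mem_DD1
      · exact mem_DD97
    · by_contra hcon
      push Not at hcon
      obtain ⟨h3, h4⟩ := hcon
      apply hc
      have hi := i.2
      have hj := j.2
      have hi' := i'.2
      have hj' := j'.2
      refine Prod.ext (Fin.ext ?_) (Fin.ext ?_)
      · change (i : ℕ) = i'
        omega
      · change (j : ℕ) = j'
        omega

/-! ### Step B -/

include h hD in
/-- sixteen masks in different cosets -/
theorem sixteen {P a : ℕ} (ha : a ∈ DD) (hT : TT P a) (hP : Inv k Y P) {c : ℕ} (hc : c < 16) (hc0 : c ≠ 0) :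
    r k (poly P c a) ∉ Y := by
  intro hm
  obtain ⟨d, -, hd⟩ := hT c hc hc0
  have h1 := hP.poly h d hm
  rw [hd] at h1
  exact hD a ha h1

include h h0 h37 hD in
theorem stepB {x : K} {M : ℕ} (hx : Acts k x M) (h6 : ∀ m, app (mp M 2) (app (mp M 2) (app (mp M 2) m)) = app M m)
    (h1M : ∀ m, app (mp M 1) m = app M m) : Inv k Y M := by
  obtain ⟨P, a, ha, hT, hP⟩ := stepA h h0 h37 hD
  obtain ⟨⟨i, c⟩, ⟨j, d⟩, hne, hy⟩ := pig h0 h37 (ι := Fin 3 × Fin 16)
    (by rw [Nat.card_eq_fintype_card]; decide)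
    (fun p => x ^ (p.1 : ℕ) * r k (poly P p.2 a))
  have hy' : (x ^ (i : ℕ) * r k (poly P c a))⁻¹ * (x ^ (j : ℕ) * r k (poly P d a)) ∈ Y := hy
  -- symmetric form
  have key : ∀ i j c d : ℕ, i ≤ j → j < 3 → c < 16 → d < 16 → (i ≠ j ∨ c ≠ d) →
      (x ^ i * r k (poly P c a))⁻¹ * (x ^ j * r k (poly P d a)) ∈ Y → Inv k Y M := by
    intro i j c d hij hj hc hd hne hy
    have h1 : (x ^ i * r k (poly P c a))⁻¹ * (x ^ j * r k (poly P d a)) =
        r k (poly P c a) * x ^ (j - i) * r k (poly P d a) := by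
      rw [mul_inv_rev, h.r_inv]
      have h2 : x ^ j = x ^ i * x ^ (j - i) := by rw [← pow_add]; congr 1; omega
      rw [h2]
      group
    rw [h1] at hy
    rcases Nat.eq_or_lt_of_le hij with h3 | h3
    · exfalso
      subst h3
      rw [Nat.sub_self, pow_zero, mul_one, ← h.r_xor, poly_xor] at hy
      have hcd : c ≠ d := by
        rcases hne with h4 | h4
        · exact absurd rfl h4
        · exact h4
      refine sixteen h hD ha hT hP (Nat.xor_lt_two_pow (n := 4) hc hd) ?_ hy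
      intro h5
      exact hcd (Nat.xor_eq_zero_iff.1 h5)
    · have h4 := inv_of h (acts_pow h hx (j - i)) hy
      have h5 : j - i = 1 ∨ j - i = 2 := by omega
      rcases h5 with h5 | h5
      · rw [h5] at h4
        intro n hn
        rw [← h1M]
        exact h4 n hn
      · rw [h5] at h4
        intro n hn
        rw [← h6]
        exact h4 _ (h4 _ (h4 _ hn))
  have hne' : (i : ℕ) ≠ j ∨ (c : ℕ) ≠ d := by
    by_contra hcon
    push Not at hcon
    exact hne (Prod.ext (Fin.ext hcon.1) (Fin.ext hcon.2))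
  rcases Nat.le_total (i : ℕ) j with hij | hij
  · exact key i j c d hij j.2 c.2 d.2 hne' hy'
  · refine key j i d c hij i.2 d.2 c.2 ?_ ?_
    · rcases hne' with h7 | h7
      · exact Or.inl h7.symm
      · exact Or.inr h7.symm
    · have h7 := Y.inv_mem hy'
      rwa [mul_inv_rev, inv_inv] at h7

/-! ### Step C -/

/-- matrix of `[0, 1, 0, 1, 2]` -/
def G1 : ℕ := mw [0, 1, 0, 1, 2]
/-- matrix of `[1, 1, 0]` -/
def G2 : ℕ := P1

theorem G1_six : mul (mul (mp G1 2) (mp G1 2)) (mp G1 2) = G1 := by decide +kernel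
theorem G1_one : mp G1 1 = G1 := by decide +kernel
theorem G2_six : mul (mul (mp G2 2) (mp G2 2)) (mp G2 2) = G2 := by decide +kernel
theorem G2_one : mp G2 1 = G2 := by decide +kernel

/-- bit set of the 60 masks of `DD` -/
def DB : ℕ := 1823829608268195304905218113382260448234415363642013184894125277215575052086

theorem DB_mem : ∀ x < 256, DB.testBit x = true → x ∈ DD := by decide +kernel

theorem DB_all {x : ℕ} (hx : DB.testBit x = true) : x ∈ DD := by
  refine DB_mem x ?_ hx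
  by_contra hc
  have h1 : DB < 2 ^ x := lt_of_lt_of_le (by unfold DB; norm_num : DB < 2 ^ 256) (Nat.pow_le_pow_right (by norm_num) (by omega))
  rw [Nat.testBit_lt_two_pow h1] at hx
  exact Bool.noConfusion hx

/-- one of the sixteen `poly P d x`, `d < n`, satisfies `f` -/
def anyP (P : ℕ) (f : ℕ → Bool) (x n : ℕ) : Bool :=
  Nat.rec false (fun d ih => Bool.rec ih true (f (poly P d x))) n

theorem anyP_spec {P : ℕ} {f : ℕ → Bool} {x n : ℕ} (h : anyP P f x n = true) : ∃ d < n, f (poly P d x) = true := by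
  induction n with
  | zero => exact Bool.noConfusion h
  | succ n ih =>
    cases hf : f (poly P n x) with
    | true => exact ⟨n, Nat.lt_succ_self n, hf⟩
    | false =>
      have h1 : anyP P f x (n + 1) = (Bool.rec (anyP P f x n) true (f (poly P n x)) : Bool) := rfl
      rw [h1, hf] at h
      obtain ⟨d, hd, hd2⟩ := ih h
      exact ⟨d, Nat.lt_succ_of_lt hd, hd2⟩

/-- the masks in `[s, s + n)` reach `DD` -/
def rchk (s n : ℕ) : Bool :=
  Nat.rec true (fun i ih => Bool.rec false ih (anyP 11048457930665041925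
    (fun y => anyP 16246484361671956993 (fun z => DB.testBit z) y 16) (s + i) 16)) n

theorem G1_val : G1 = 11048457930665041925 := by decide +kernel
theorem G2_val : G2 = 16246484361671956993 := by decide +kernel

theorem rchk_spec {s n : ℕ} (h : rchk s n = true) : ∀ m, s ≤ m → m < s + n →
    ∃ c < 16, ∃ d < 16, poly G2 d (poly G1 c m) ∈ DD := by
  induction n with
  | zero => intro m h1 h2; omega
  | succ n ih =>
    have h1 : rchk s (n + 1) = (Bool.rec false (rchk s n) (anyP 11048457930665041925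
      (fun y => anyP 16246484361671956993 (fun z => DB.testBit z) y 16) (s + n) 16) : Bool) := rfl
    rw [h1] at h
    cases h2 : anyP 11048457930665041925 (fun y => anyP 16246484361671956993 (fun z => DB.testBit z) y 16) (s + n) 16 with
    | false => rw [h2] at h; exact Bool.noConfusion h
    | true =>
      rw [h2] at h
      intro m hm hm2
      rcases Nat.lt_or_ge m (s + n) with h3 | h3
      · exact ih h m hm h3
      · have h4 : m = s + n := by omega
        subst h4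
        obtain ⟨c, hc, hc2⟩ := anyP_spec h2
        obtain ⟨d, hd, hd2⟩ := anyP_spec hc2
        rw [G1_val, G2_val]
        exact ⟨c, hc, d, hd, DB_all hd2⟩

theorem r0 : rchk 1 63 = true := by decide +kernel
theorem r1 : rchk 64 64 = true := by decide +kernel
theorem r2 : rchk 128 64 = true := by decide +kernel
theorem r3 : rchk 192 64 = true := by decide +kernel

theorem reach : ∀ m < 256, m ≠ 0 → ∃ c < 16, ∃ d < 16, poly G2 d (poly G1 c m) ∈ DD := by
  intro m hm hm0
  rcases Nat.lt_or_ge m 64 with h1 | h1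
  · exact rchk_spec r0 m (by omega) (by omega)
  rcases Nat.lt_or_ge m 128 with h2 | h2
  · exact rchk_spec r1 m h1 (by omega)
  rcases Nat.lt_or_ge m 192 with h3 | h3
  · exact rchk_spec r2 m h2 (by omega)
  · exact rchk_spec r3 m h3 (by omega)

include h h0 h37 hD in
/-- **No subgroup of index at most 37 avoids the class of `k 0`.** -/
theorem abs : False := by
  have b1 : Inv k Y G1 := stepB h h0 h37 hD (x := evw γ [0, 1, 0, 1, 2]) (h.acts_evw _)
    (fun m => by rw [← app_mul, ← app_mul]; exact congrArg (fun t => app t m) G1_six)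
    (fun m => by rw [G1_one])
  have b2 : Inv k Y G2 := stepB h h0 h37 hD (x := evw γ [1, 1, 0]) (by rw [G2, ← mw1]; exact h.acts_evw _)
    (fun m => by rw [← app_mul, ← app_mul]; exact congrArg (fun t => app t m) G2_six)
    (fun m => by rw [G2_one])
  obtain ⟨m, n, hne, hy⟩ := pig h0 h37 (ι := Fin 256) (by rw [Nat.card_eq_fintype_card]; decide) (fun m => r k (m : ℕ))
  rw [h.r_inv, ← h.r_xor] at hy
  obtain ⟨c, -, d, -, hcd⟩ := reach ((m : ℕ) ^^^ n) (Nat.xor_lt_two_pow (n := 8) m.2 n.2) (fun h1 =>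
    hne (Fin.ext (Nat.xor_eq_zero_iff.1 h1)))
  exact hD _ hcd (b2.poly h d (b1.poly h c hy))

end

end Cfsg.Agent.H789.IF.HNAbs
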